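import Mathlib

/-!
# Groups in which centralizers of noncentral elements (of a normal subgroup) are maximal
Definitions for the ladder CMAX (S3904, S3905).
-/

set_option autoImplicit false

namespace Cfsg.Agent.Lib.Helper70.CMax

open Subgroup

/-- hypothesis of S3905 for the pair `(G, N)`. -/
def Hyp {G : Type*} [Group G] (N : Subgroup G) : Prop :=
  ∀ x ∈ N, x ∉ centralizer (N : Set G) → IsCoatom (centralizer ({x} : Set G))

/-- a centerless pair: `N` normal, nontrivial, `Z(N) = 1`, and `C_G(x)` maximal for `1 ≠ x ∈ N`. -/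
structure CL {G : Type*} [Group G] (N : Subgroup G) : Prop where
  normal : N.Normal
  ne : N ≠ ⊥
  cl : ∀ x ∈ N, x ∈ centralizer (N : Set G) → x = 1
  max : ∀ x ∈ N, x ≠ 1 → IsCoatom (centralizer ({x} : Set G))

/-- the structure obtained for a centerless pair. -/
structure Out {G : Type*} [Group G] (N K : Subgroup G) (p q : ℕ) : Prop where
  le : K ≤ N
  normal : K.Normal
  ne : K ≠ ⊥
  pp : p.Prime
  qp : q.Prime
  comm : ∀ a ∈ K, ∀ b ∈ K, a * b = b * a
  exp : ∀ a ∈ K, a ^ p = 1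
  idx : K.relIndex N = q
  fpf : ∀ y ∈ N, y ∉ K → ∀ k ∈ K, y * k = k * y → k = 1
  min : ∀ K₀ : Subgroup G, K₀.Normal → K₀ ≤ K → K₀ = ⊥ ∨ K₀ = K

/-- Frobenius data on an abstract group. -/
structure FD (H : Type*) [Group H] (K : Subgroup H) (p q : ℕ) : Prop where
  normal : K.Normal
  ne : K ≠ ⊥
  pp : p.Prime
  qp : q.Prime
  comm : ∀ a ∈ K, ∀ b ∈ K, a * b = b * a
  exp : ∀ a ∈ K, a ^ p = 1
  idx : K.index = q
  fpf : ∀ y, y ∉ K → ∀ k ∈ K, y * k = k * y → k = 1

end Cfsg.Agent.Lib.Helper70.CMax
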