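import Mathlib
import Cfsg.Agent.Lib.Helper70.CMax.Defs

set_option autoImplicit false

namespace Cfsg.Agent.Lib.Helper70.CMax

open Subgroup

variable {G : Type*} [Group G]

/-- Elements of `H ⊔ K` are products `h * k` when `K` normalizes `H`. -/
theorem mem_sup_of_norm {H K : Subgroup G} (hK : K ≤ normalizer (H : Set G))
    {x : G} (hx : x ∈ H ⊔ K) : ∃ h ∈ H, ∃ k ∈ K, x = h * k := by
  have heq : H ⊔ K = closure ((H : Set G) ∪ K) := by
    rw [Subgroup.closure_union, Subgroup.closure_eq, Subgroup.closure_eq]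
  rw [heq] at hx
  induction hx using closure_induction with
  | mem x hx =>
    rcases hx with hx | hx
    · exact ⟨x, hx, 1, K.one_mem, by simp⟩
    · exact ⟨1, H.one_mem, x, hx, by simp⟩
  | one => exact ⟨1, H.one_mem, 1, K.one_mem, by simp⟩
  | mul x y _ _ ihx ihy =>
    obtain ⟨h, hh, k, hk, rfl⟩ := ihx
    obtain ⟨h', hh', k', hk', rfl⟩ := ihy
    refine ⟨h * (k * h' * k⁻¹), H.mul_mem hh ((mem_normalizer_iff.mp (hK hk) h').mp hh'),
      k * k', K.mul_mem hk hk', by group⟩
  | inv x _ ih =>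
    obtain ⟨h, hh, k, hk, rfl⟩ := ih
    refine ⟨k⁻¹ * h⁻¹ * k⁻¹⁻¹,
      (mem_normalizer_iff.mp (hK (K.inv_mem hk)) h⁻¹).mp (H.inv_mem hh),
      k⁻¹, K.inv_mem hk, by group⟩

theorem mem_cent {x g : G} : g ∈ centralizer ({x} : Set G) ↔ g * x = x * g := by
  rw [mem_centralizer_singleton_iff]

theorem max_inv {N : Subgroup G} [N.Normal] {x : G} (hx : ¬ N ≤ centralizer ({x} : Set G))
    (hmax : IsCoatom (centralizer ({x} : Set G))) {U : Subgroup G}
    (hU1 : N ⊓ centralizer ({x} : Set G) ≤ U) (hU2 : U ≤ N)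
    (hU3 : centralizer ({x} : Set G) ≤ normalizer (U : Set G)) :
    U = N ⊓ centralizer ({x} : Set G) ∨ U = N := by
  by_cases hle : U ≤ centralizer ({x} : Set G)
  · left
    exact le_antisymm (le_inf hU2 hle) hU1
  · right
    have htop : U ⊔ centralizer ({x} : Set G) = ⊤ := by
      apply hmax.2
      refine lt_of_le_of_ne le_sup_right ?_
      intro he
      apply hle
      rw [he]
      exact le_sup_left
    apply le_antisymm hU2
    intro n hn
    have hn' : n ∈ U ⊔ centralizer ({x} : Set G) := by rw [htop]; exact mem_top n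
    obtain ⟨u, hu, m, hm, rfl⟩ := mem_sup_of_norm hU3 hn'
    have hmN : m ∈ N := by
      have : m = u⁻¹ * (u * m) := by group
      rw [this]
      exact N.mul_mem (N.inv_mem (hU2 hu)) hn
    exact U.mul_mem hu (hU1 ⟨hmN, hm⟩)

theorem CL.not_le {N : Subgroup G} (h : CL N) {x : G} (hx : x ∈ N) (hx1 : x ≠ 1) :
    ¬ N ≤ centralizer ({x} : Set G) := by
  intro hle
  apply hx1
  apply h.cl x hx
  rw [mem_centralizer_iff]
  intro n hn
  have := mem_cent.1 (hle hn)
  exact this

theorem CL.cent_eq_of_le {N : Subgroup G} (h : CL N) {x y : G} (hx : x ∈ N) (hx1 : x ≠ 1)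
    (hy : y ∈ N) (hy1 : y ≠ 1) (hle : centralizer ({x} : Set G) ≤ centralizer ({y} : Set G)) :
    centralizer ({x} : Set G) = centralizer ({y} : Set G) := by
  by_contra hne
  exact (h.max y hy hy1).1 ((h.max x hx hx1).2 _ (lt_of_le_of_ne hle hne))

theorem CL.cent_pow {N : Subgroup G} (h : CL N) {x : G} (hx : x ∈ N) (k : ℕ) (hk : x ^ k ≠ 1) :
    centralizer ({x ^ k} : Set G) = centralizer ({x} : Set G) := by
  have hx1 : x ≠ 1 := by
    rintro rfl
    simp at hk
  symm
  apply h.cent_eq_of_le hx hx1 (N.pow_mem hx k) hk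
  intro g hg
  rw [mem_cent] at hg ⊢
  exact ((Commute.pow_right (show Commute g x from hg) k)).eq

theorem CL.pair_aux {N : Subgroup G} (h : CL N) {x y : G} (hx : x ∈ N) (hy : y ∈ N)
    (hx1 : x ≠ 1) (hy1 : y ≠ 1) (hxy : x * y = y * x)
    (hne : centralizer ({x} : Set G) ≠ centralizer ({y} : Set G)) (k : ℕ) (hk : x ^ k = 1) :
    y ^ k = 1 := by
  by_contra hyk
  have hpow : (x * y) ^ k = y ^ k := by
    rw [(show Commute x y from hxy).mul_pow, hk, one_mul]
  have hxyN : x * y ∈ N := N.mul_mem hx hy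
  have h1 : centralizer ({(x * y) ^ k} : Set G) = centralizer ({x * y} : Set G) :=
    h.cent_pow hxyN k (by rw [hpow]; exact hyk)
  have h2 : centralizer ({y ^ k} : Set G) = centralizer ({y} : Set G) := h.cent_pow hy k hyk
  have h3 : centralizer ({x * y} : Set G) = centralizer ({y} : Set G) := by
    rw [← h1, hpow, h2]
  apply hne
  symm
  apply h.cent_eq_of_le hy hy1 hx hx1
  intro g hg
  have hg2 : g ∈ centralizer ({x * y} : Set G) := by rw [h3]; exact hg
  rw [mem_cent] at hg hg2 ⊢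
  have : g * x * y = x * g * y := by
    calc g * x * y = g * (x * y) := by group
      _ = x * y * g := hg2
      _ = x * (y * g) := by group
      _ = x * (g * y) := by rw [hg]
      _ = x * g * y := by group
  exact mul_right_cancel this

theorem CL.pair [Finite G] {N : Subgroup G} (h : CL N) {x y : G} (hx : x ∈ N) (hy : y ∈ N) (hx1 : x ≠ 1)
    (hy1 : y ≠ 1) (hxy : x * y = y * x)
    (hne : centralizer ({x} : Set G) ≠ centralizer ({y} : Set G)) :
    ∃ r : ℕ, r.Prime ∧ orderOf x = r ∧ orderOf y = r := by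
  have key : ∀ {x y : G}, x ∈ N → y ∈ N → x ≠ 1 → y ≠ 1 → x * y = y * x →
      centralizer ({x} : Set G) ≠ centralizer ({y} : Set G) → orderOf x = orderOf y := by
    intro x y hx hy hx1 hy1 hxy hne
    apply Nat.dvd_antisymm
    · apply orderOf_dvd_of_pow_eq_one
      exact h.pair_aux hy hx hy1 hx1 hxy.symm hne.symm _ (pow_orderOf_eq_one y)
    · apply orderOf_dvd_of_pow_eq_one
      exact h.pair_aux hx hy hx1 hy1 hxy hne _ (pow_orderOf_eq_one x)
  have hxy' := key hx hy hx1 hy1 hxy hne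
  have hn1 : orderOf y ≠ 1 := by
    rw [Ne, orderOf_eq_one_iff]; exact hy1
  obtain ⟨r, hr, hrd⟩ := Nat.exists_prime_and_dvd hn1
  by_cases hyr : y ^ r = 1
  · have : orderOf y = r := by
      rcases (Nat.dvd_prime hr).1 (orderOf_dvd_of_pow_eq_one hyr) with h1 | h1
      · exact absurd h1 hn1
      · exact h1
    exact ⟨r, hr, by rw [hxy', this], this⟩
  · exfalso
    have h1 : centralizer ({y ^ r} : Set G) = centralizer ({y} : Set G) := h.cent_pow hy r hyr
    have h2 := key hx (N.pow_mem hy r) hx1 hyr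
      ((Commute.pow_right (show Commute x y from hxy) r)).eq (by rw [h1]; exact hne)
    have h3 : orderOf (y ^ r) = orderOf y / r := orderOf_pow_of_dvd hr.ne_zero hrd
    rw [hxy', h3] at h2
    have hpos : 0 < orderOf y := orderOf_pos y
    have : orderOf y / r < orderOf y := Nat.div_lt_self hpos hr.one_lt
    omega

/-- dichotomy: type (a) or type (b). -/
theorem CL.dich [Finite G] {N : Subgroup G} (h : CL N) {x : G} (hx : x ∈ N) (hx1 : x ≠ 1) :
    (∀ u ∈ N, u ≠ 1 → u * x = x * u → centralizer ({u} : Set G) = centralizer ({x} : Set G)) ∨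
    ∃ r : ℕ, r.Prime ∧ ∀ u ∈ N, u * x = x * u → u ^ r = 1 := by
  by_cases hA : ∀ u ∈ N, u ≠ 1 → u * x = x * u → centralizer ({u} : Set G) = centralizer ({x} : Set G)
  · exact Or.inl hA
  · right
    push Not at hA
    obtain ⟨u, hu, hu1, hux, hne⟩ := hA
    obtain ⟨r, hr, hur, hxr⟩ := h.pair hu hx hu1 hx1 hux hne
    refine ⟨r, hr, ?_⟩
    intro v hv hvx
    by_cases hv1 : v = 1
    · rw [hv1, one_pow]
    by_cases hvc : centralizer ({v} : Set G) = centralizer ({x} : Set G)
    · have hvu : v * u = u * v := by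
        have : u ∈ centralizer ({v} : Set G) := by rw [hvc, mem_cent]; exact hux
        exact (mem_cent.1 this).symm
      obtain ⟨r', _, hvr, hur'⟩ := h.pair hv hu hv1 hu1 hvu (by rw [hvc]; exact hne.symm)
      rw [← hur, hur', ← hvr]
      exact pow_orderOf_eq_one v
    · obtain ⟨r', _, hvr, hxr'⟩ := h.pair hv hx hv1 hx1 hvx hvc
      rw [← hxr, hxr', ← hvr]
      exact pow_orderOf_eq_one v

/-- the complement trick. -/
theorem CL.central_mod {N : Subgroup G} (h : CL N) {L : Subgroup G} (hL : L.Normal) {y : G}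
    (hy : y ∈ N) (hy1 : y ≠ 1) (hfree : ∀ x ∈ L, y * x = x * y → x = 1) (hL1 : L ≠ ⊥) (g : G) :
    g * y * g⁻¹ * y⁻¹ ∈ L := by
  have hnle : ¬ L ≤ centralizer ({y} : Set G) := by
    intro hle
    apply hL1
    rw [eq_bot_iff]
    intro x hx
    rw [mem_bot]
    exact hfree x hx (mem_cent.1 (hle hx)).symm
  have htop : L ⊔ centralizer ({y} : Set G) = ⊤ := by
    apply (h.max y hy hy1).2
    refine lt_of_le_of_ne le_sup_right ?_
    intro he
    apply hnle
    rw [he]
    exact le_sup_left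
  have hg : g ∈ L ⊔ centralizer ({y} : Set G) := by rw [htop]; exact mem_top g
  obtain ⟨l, hl, m, hm, rfl⟩ := mem_sup_of_norm (H := L) (K := centralizer ({y} : Set G))
    (by rw [normalizer_eq_top]; exact le_top) hg
  rw [mem_cent] at hm
  have : l * m * y * (l * m)⁻¹ * y⁻¹ = l * (y * l⁻¹ * y⁻¹) := by
    have : m * y * m⁻¹ = y := by rw [hm]; group
    calc l * m * y * (l * m)⁻¹ * y⁻¹ = l * (m * y * m⁻¹) * l⁻¹ * y⁻¹ := by group
      _ = l * y * l⁻¹ * y⁻¹ := by rw [this]
      _ = l * (y * l⁻¹ * y⁻¹) := by group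
  rw [this]
  exact L.mul_mem hl (hL.conj_mem _ (L.inv_mem hl) y)

end Cfsg.Agent.Lib.Helper70.CMax
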