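import Mathlib
import Cfsg.Agent.Lib.Helper70.CMax.Basic

set_option autoImplicit false

namespace Cfsg.Agent.Lib.Helper70.CMax

open Subgroup

variable {G : Type*} [Group G]

/-- subgroups between `L` and `N` are normal when `N / L` is central in `G / L`. -/
theorem normal_of_central {N L U : Subgroup G}
    (c1 : ∀ y ∈ N, ∀ g : G, g * y * g⁻¹ * y⁻¹ ∈ L) (h1 : L ≤ U) (h2 : U ≤ N) : U.Normal := by
  constructor
  intro u hu g
  have : g * u * g⁻¹ = (g * u * g⁻¹ * u⁻¹) * u := by group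
  rw [this]
  exact U.mul_mem (h1 (c1 u (h2 hu) g)) hu

theorem CL.fin [Finite G] {N : Subgroup G} (h : CL N) {L : Subgroup G}
    (hL : L.Normal) (hLN : L ≤ N) (hL1 : L ≠ ⊥)
    (hmin : ∀ L₀ : Subgroup G, L₀.Normal → L₀ ≤ L → L₀ = ⊥ ∨ L₀ = L)
    (hcomm : ∀ a ∈ L, ∀ b ∈ L, a * b = b * a) {p : ℕ} (hp : p.Prime) (hexp : ∀ a ∈ L, a ^ p = 1)
    {a : G} (ha : a ∈ L) (ha1 : a ≠ 1)
    (c1 : ∀ y ∈ N, ∀ g : G, g * y * g⁻¹ * y⁻¹ ∈ L)
    (c2 : ∀ v ∈ N, v * a = a * v → v ≠ 1 → ∀ y ∈ N, y * v = v * y → y * a = a * y) :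
    ∃ q, Out N L p q := by
  have := h.normal
  have haN : a ∈ N := hLN ha
  -- an element outside the centralizer of `a`
  obtain ⟨y, hyN, hya⟩ : ∃ y ∈ N, ¬ y * a = a * y := by
    by_contra hcon
    push Not at hcon
    exact h.not_le haN ha1 (fun n hn => mem_cent.2 (hcon n hn))
  have hy1 : y ≠ 1 := by
    rintro rfl
    simp at hya
  -- T_y ∩ S = 1
  have hTS : ∀ t ∈ N, t * y = y * t → t * a = a * t → t = 1 := by
    intro t ht hty hta
    by_contra ht1
    exact hya (c2 t ht hta ht1 y hyN hty.symm)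
  -- a prime order element of T_y
  obtain ⟨q, hq, hqd⟩ := Nat.exists_prime_and_dvd (show orderOf y ≠ 1 by
    rw [Ne, orderOf_eq_one_iff]; exact hy1)
  set t := y ^ (orderOf y / q) with ht
  have hto : orderOf t = q := by
    rw [ht, orderOf_pow_of_dvd, Nat.div_div_self hqd (orderOf_pos y).ne']
    · have := Nat.div_pos (Nat.le_of_dvd (orderOf_pos y) hqd) hq.pos
      omega
    · exact Nat.div_dvd_of_dvd hqd
  have htN : t ∈ N := N.pow_mem hyN _
  have hty : t * y = y * t := ((Commute.refl y).pow_left _).eq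
  have ht1 : t ≠ 1 := by
    intro h1
    rw [h1, orderOf_one] at hto
    exact hq.one_lt.ne hto
  have hta : ¬ t * a = a * t := fun hc => ht1 (hTS t htN hty hc)
  -- elements of `zpowers t` commute with `y`
  have hQy : ∀ u ∈ zpowers t, u ∈ N ∧ u * y = y * u := by
    intro u hu
    obtain ⟨i, rfl⟩ := mem_zpowers_iff.1 hu
    exact ⟨N.zpow_mem htN i, ((show Commute t y from hty).zpow_left i).eq⟩
  have hLQ : L ⊓ zpowers t = ⊥ := by
    rw [eq_bot_iff]
    intro u hu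
    rw [mem_bot]
    exact hTS u (hQy u hu.2).1 (hQy u hu.2).2 (hcomm u hu.1 a ha)
  -- L ⊔ zpowers t = N
  have hS_le : N ⊓ centralizer ({a} : Set G) ≤ L ⊔ (N ⊓ centralizer ({a} : Set G)) := le_sup_right
  have hLS : L ≤ N ⊓ centralizer ({a} : Set G) := fun l hl => ⟨hLN hl, mem_cent.2 (hcomm l hl a ha)⟩
  -- first: S = L, via y
  have hU1 : L ⊔ (N ⊓ centralizer ({y} : Set G)) = N := by
    have hUN : L ⊔ (N ⊓ centralizer ({y} : Set G)) ≤ N := sup_le hLN inf_le_left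
    have hUn : (L ⊔ (N ⊓ centralizer ({y} : Set G))).Normal := normal_of_central c1 le_sup_left hUN
    rcases max_inv (h.not_le hyN hy1) (h.max y hyN hy1) (U := L ⊔ (N ⊓ centralizer ({y} : Set G)))
      le_sup_right hUN (by rw [normalizer_eq_top]; exact le_top) with h1 | h1
    · exfalso
      have : a ∈ N ⊓ centralizer ({y} : Set G) := by
        rw [← h1]; exact mem_sup_left ha
      exact hya (mem_cent.1 this.2).symm
    · exact h1
  have hSL : N ⊓ centralizer ({a} : Set G) ≤ L := by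
    intro s hs
    have hs' : s ∈ L ⊔ (N ⊓ centralizer ({y} : Set G)) := by rw [hU1]; exact hs.1
    obtain ⟨l, hl, m, hm, rfl⟩ := mem_sup_of_norm (H := L) (K := N ⊓ centralizer ({y} : Set G))
      (by rw [normalizer_eq_top]; exact le_top) hs'
    have hma : m * a = a * m := by
      have h1 : l * m * a = a * (l * m) := mem_cent.1 hs.2
      have h2 : l * a = a * l := hcomm l hl a ha
      have : l * (m * a) = l * (a * m) := by
        calc l * (m * a) = l * m * a := by group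
          _ = a * (l * m) := h1
          _ = (a * l) * m := by group
          _ = (l * a) * m := by rw [h2]
          _ = l * (a * m) := by group
      exact mul_left_cancel this
    have : m = 1 := hTS m hm.1 (mem_cent.1 hm.2) hma
    rw [this, mul_one]
    exact hl
  have hSeq : N ⊓ centralizer ({a} : Set G) = L := le_antisymm hSL hLS
  have hU2 : L ⊔ zpowers t = N := by
    have hUN : L ⊔ zpowers t ≤ N := sup_le hLN (by rw [zpowers_le]; exact htN)
    have hUn : (L ⊔ zpowers t).Normal := normal_of_central c1 le_sup_left hUN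
    rcases max_inv (h.not_le haN ha1) (h.max a haN ha1) (U := L ⊔ zpowers t)
      (by rw [hSeq]; exact le_sup_left) hUN (by rw [normalizer_eq_top]; exact le_top) with h1 | h1
    · exfalso
      have : t ∈ N ⊓ centralizer ({a} : Set G) := by
        rw [← h1]; exact mem_sup_right (mem_zpowers t)
      exact hta (mem_cent.1 this.2)
    · exact h1
  refine ⟨q, ⟨hLN, hL, hL1, hp, hq, hcomm, hexp, ?_, ?_, hmin⟩⟩
  · rw [← hU2, relIndex_sup_left, ← inf_relIndex_right, hLQ, relIndex_bot_left, Nat.card_zpowers, hto]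
  · intro y' hy' hy'L k hk hc
    by_contra hk1
    apply hy'L
    rw [← hSeq]
    exact ⟨hy', mem_cent.2 (c2 k (hLN hk) (hcomm k hk a ha) hk1 y' hy' hc)⟩

theorem comm_mem_of_mul {L : Subgroup G} (hL : L.Normal) {g y y₀ : G}
    (h1 : g * (y * y₀) * g⁻¹ * (y * y₀)⁻¹ ∈ L) (h2 : g * y₀ * g⁻¹ * y₀⁻¹ ∈ L) :
    g * y * g⁻¹ * y⁻¹ ∈ L := by
  have : g * y * g⁻¹ * y⁻¹
      = (g * (y * y₀) * g⁻¹ * (y * y₀)⁻¹) * (y * (g * y₀ * g⁻¹ * y₀⁻¹)⁻¹ * y⁻¹) := by group
  rw [this]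
  exact L.mul_mem h1 (hL.conj_mem _ (L.inv_mem h2) y)

theorem CL.caseA [Finite G] {N : Subgroup G} (h : CL N) {L : Subgroup G}
    (hL : L.Normal) (hLN : L ≤ N) (hL1 : L ≠ ⊥)
    (hmin : ∀ L₀ : Subgroup G, L₀.Normal → L₀ ≤ L → L₀ = ⊥ ∨ L₀ = L)
    (hcomm : ∀ a ∈ L, ∀ b ∈ L, a * b = b * a) {p : ℕ} (hp : p.Prime) (hexp : ∀ a ∈ L, a ^ p = 1)
    (hA : ∀ x ∈ L, x ≠ 1 → ∀ u ∈ N, u ≠ 1 → u * x = x * u →
      centralizer ({u} : Set G) = centralizer ({x} : Set G)) :
    ∃ q, Out N L p q := by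
  obtain ⟨a, ha, ha1⟩ : ∃ a ∈ L, a ≠ 1 := by
    by_contra hcon
    push Not at hcon
    exact hL1 ((eq_bot_iff_forall L).2 hcon)
  have haN : a ∈ N := hLN ha
  obtain ⟨y₀, hy₀N, hy₀a⟩ : ∃ y ∈ N, ¬ y * a = a * y := by
    by_contra hcon
    push Not at hcon
    exact h.not_le haN ha1 (fun n hn => mem_cent.2 (hcon n hn))
  have key : ∀ y ∈ N, ¬ y * a = a * y → ∀ g : G, g * y * g⁻¹ * y⁻¹ ∈ L := by
    intro y hy hya g
    have hy1 : y ≠ 1 := by
      rintro rfl
      simp at hya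
    apply h.central_mod hL hy hy1 _ hL1
    intro x hx hyx
    by_contra hx1
    have h1 := hA x hx hx1 y hy hy1 hyx
    have h2 : a ∈ centralizer ({y} : Set G) := by
      rw [h1, mem_cent]; exact hcomm a ha x hx
    exact hya (mem_cent.1 h2).symm
  apply h.fin hL hLN hL1 hmin hcomm hp hexp ha ha1
  · intro y hy g
    by_cases hya : y * a = a * y
    · have h3 : ¬ (y * y₀) * a = a * (y * y₀) := by
        intro hc
        apply hy₀a
        have : y * (y₀ * a) = y * (a * y₀) := by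
          calc y * (y₀ * a) = y * y₀ * a := by group
            _ = a * (y * y₀) := hc
            _ = (a * y) * y₀ := by group
            _ = (y * a) * y₀ := by rw [hya]
            _ = y * (a * y₀) := by group
        exact mul_left_cancel this
      exact comm_mem_of_mul hL (key _ (N.mul_mem hy hy₀N) h3 g) (key _ hy₀N hy₀a g)
    · exact key y hy hya g
  · intro v hv hva hv1 y _ hyv
    have h1 := hA a ha ha1 v hv hv1 hva
    have : y ∈ centralizer ({a} : Set G) := by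
      rw [← h1, mem_cent]; exact hyv
    exact mem_cent.1 this

/-- `p`-th powers modulo `L` are multiplicative on `N` when `N / L` is central. -/
theorem pow_mem_of_central {N L : Subgroup G} (hL : L.Normal)
    (c1 : ∀ y ∈ N, ∀ g : G, g * y * g⁻¹ * y⁻¹ ∈ L) {u v : G} (hv : v ∈ N) (n : ℕ)
    (hu : u ^ n ∈ L) (huv : (u * v) ^ n ∈ L) : v ^ n ∈ L := by
  have hc : Commute (QuotientGroup.mk' L u) (QuotientGroup.mk' L v) := by
    have h1 := c1 v hv u
    have h2 : QuotientGroup.mk' L (u * v * u⁻¹ * v⁻¹) = 1 := (QuotientGroup.eq_one_iff _).2 h1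
    rw [map_mul, map_mul, map_mul, map_inv, map_inv] at h2
    have h3 := mul_inv_eq_one.1 h2
    have h4 := mul_inv_eq_iff_eq_mul.1 h3
    exact h4
  have h1 : QuotientGroup.mk' L ((u * v) ^ n) = 1 := (QuotientGroup.eq_one_iff _).2 huv
  have h2 : QuotientGroup.mk' L (u ^ n) = 1 := (QuotientGroup.eq_one_iff _).2 hu
  rw [map_pow, map_mul, hc.mul_pow, ← map_pow, h2, one_mul, ← map_pow] at h1
  exact (QuotientGroup.eq_one_iff _).1 h1

theorem eq_of_prime_pow {x : G} (hx1 : x ≠ 1) {p r : ℕ} (hp : p.Prime) (hr : r.Prime)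
    (h1 : x ^ p = 1) (h2 : x ^ r = 1) : r = p := by
  have ho : orderOf x ≠ 1 := by rw [Ne, orderOf_eq_one_iff]; exact hx1
  have e1 := ((Nat.dvd_prime hp).1 (orderOf_dvd_of_pow_eq_one h1)).resolve_left ho
  have e2 := ((Nat.dvd_prime hr).1 (orderOf_dvd_of_pow_eq_one h2)).resolve_left ho
  omega

/-- a centerless group is not a `p`-group. -/
theorem CL.exists_prime_order [Finite G] {N : Subgroup G} (h : CL N) {p : ℕ} (hp : p.Prime) :
    ∃ w ∈ N, ∃ s : ℕ, s.Prime ∧ s ≠ p ∧ orderOf w = s := by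
  by_contra hcon
  push Not at hcon
  have : Fact p.Prime := ⟨hp⟩
  have hPG : IsPGroup p ↥N := by
    have hcard : ∀ s : ℕ, s.Prime → s ∣ Nat.card ↥N → s = p := by
      intro s hs hd
      by_contra hsp
      have : Fact s.Prime := ⟨hs⟩
      obtain ⟨w, hw⟩ := exists_prime_orderOf_dvd_card' s hd
      exact hcon w.1 w.2 s hs hsp (by rw [← hw, Subgroup.orderOf_coe])
    have := Nat.eq_prime_pow_of_unique_prime_dvd (Nat.card_pos (α := ↥N)).ne' (fun {d} hd hdd => hcard d hd hdd)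
    exact IsPGroup.of_card this
  have : Nontrivial ↥N := (nontrivial_iff_ne_bot N).2 h.ne
  have := hPG.center_nontrivial
  obtain ⟨z, hz⟩ := exists_ne (1 : ↥(center ↥N))
  apply hz
  have hz1 : (z.1 : G) = 1 := by
    apply h.cl _ z.1.2
    rw [mem_centralizer_iff]
    intro n hn
    have := (mem_center_iff.1 z.2) ⟨n, hn⟩
    exact congrArg Subtype.val this
  exact Subtype.ext (Subtype.ext hz1)

theorem CL.caseB [Finite G] {N : Subgroup G} (h : CL N) {L : Subgroup G}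
    (hL : L.Normal) (hLN : L ≤ N) (hL1 : L ≠ ⊥)
    (hmin : ∀ L₀ : Subgroup G, L₀.Normal → L₀ ≤ L → L₀ = ⊥ ∨ L₀ = L)
    (hcomm : ∀ a ∈ L, ∀ b ∈ L, a * b = b * a) {p : ℕ} (hp : p.Prime) (hexp : ∀ a ∈ L, a ^ p = 1)
    {x₀ : G} (hx₀ : x₀ ∈ L) (hx₀1 : x₀ ≠ 1) (hB : ∀ u ∈ N, u * x₀ = x₀ * u → u ^ p = 1) :
    ∃ q, Out N L p q := by
  have := h.normal
  -- (B1)
  have B1 : ∀ x ∈ L, x ≠ 1 → ∀ u ∈ N, u * x = x * u → u ^ p = 1 := by
    intro x hx hx1 u hu hux
    rcases h.dich (hLN hx) hx1 with hA | ⟨r, hr, hr2⟩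
    · have h1 := hA x₀ (hLN hx₀) hx₀1 (hcomm x₀ hx₀ x hx)
      apply hB u hu
      have : u ∈ centralizer ({x₀} : Set G) := by rw [h1, mem_cent]; exact hux
      exact mem_cent.1 this
    · have : r = p := eq_of_prime_pow hx1 hp hr (hexp x hx) (hr2 x (hLN hx) rfl)
      rw [← this]
      exact hr2 u hu hux
  -- (B2)
  obtain ⟨w, hwN, s, hs, hsp, hws⟩ := h.exists_prime_order hp
  have hw1 : w ≠ 1 := by
    intro hc
    rw [hc, orderOf_one] at hws
    exact hs.one_lt.ne hws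
  have hwpL : w ^ p ∉ L := by
    intro hc
    have h1 : w ^ (p * p) = 1 := by rw [pow_mul]; exact hexp _ hc
    have h2 : s ∣ p * p := by rw [← hws]; exact orderOf_dvd_of_pow_eq_one h1
    rcases (Nat.Prime.dvd_mul hs).1 h2 with h3 | h3 <;>
      exact hsp ((Nat.prime_dvd_prime_iff_eq hs hp).1 h3)
  have hwp : w ^ p ≠ 1 := fun hc => hwpL (by rw [hc]; exact L.one_mem)
  have free_of : ∀ y ∈ N, y ^ p ≠ 1 → ∀ g : G, g * y * g⁻¹ * y⁻¹ ∈ L := by
    intro y hy hyp g
    have hy1 : y ≠ 1 := by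
      rintro rfl
      simp at hyp
    apply h.central_mod hL hy hy1 _ hL1
    intro x hx hyx
    by_contra hx1
    exact hyp (B1 x hx hx1 y hy hyx)
  have hwc := free_of w hwN hwp
  -- (B3)
  have c1 : ∀ y ∈ N, ∀ g : G, g * y * g⁻¹ * y⁻¹ ∈ L := by
    intro y hy g
    by_cases hyp : y ^ p = 1
    · by_cases hywp : (y * w) ^ p = 1
      · exfalso
        -- w ^ p ∈ L
        apply hwpL
        have hc : Commute (QuotientGroup.mk' L y) (QuotientGroup.mk' L w) := by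
          have h1 := hwc y
          have h2 : QuotientGroup.mk' L (y * w * y⁻¹ * w⁻¹) = 1 := (QuotientGroup.eq_one_iff _).2 h1
          rw [map_mul, map_mul, map_mul, map_inv, map_inv] at h2
          have h3 := mul_inv_eq_one.1 h2
          exact mul_inv_eq_iff_eq_mul.1 h3
        have h1 : QuotientGroup.mk' L ((y * w) ^ p) = 1 := by rw [hywp, map_one]
        rw [map_pow, map_mul, hc.mul_pow, ← map_pow, hyp, map_one, one_mul, ← map_pow] at h1
        exact (QuotientGroup.eq_one_iff _).1 h1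
      · exact comm_mem_of_mul hL (free_of _ (N.mul_mem hy hwN) hywp g) (hwc g)
    · exact free_of y hy hyp g
  apply h.fin hL hLN hL1 hmin hcomm hp hexp hx₀ hx₀1 c1
  -- (B4)
  intro v hv hva hv1 y hy hyv
  rcases h.dich hv hv1 with hA | ⟨r, hr, hr2⟩
  · have h1 := hA x₀ (hLN hx₀) hx₀1 hva.symm
    have : y ∈ centralizer ({x₀} : Set G) := by rw [h1, mem_cent]; exact hyv
    exact mem_cent.1 this
  · have hrp : r = p := eq_of_prime_pow hv1 hp hr (hB v hv hva) (hr2 v hv rfl)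
    have hyp : y ^ p = 1 := by rw [← hrp]; exact hr2 y hy hyv
    set S := N ⊓ centralizer ({x₀} : Set G) with hS
    have hLS : L ≤ S := fun l hl => ⟨hLN hl, mem_cent.2 (hcomm l hl x₀ hx₀)⟩
    have hSn : S.Normal := normal_of_central c1 hLS inf_le_left
    have hUN : S ⊔ zpowers y ≤ N := sup_le inf_le_left (by rw [zpowers_le]; exact hy)
    have hUn : (S ⊔ zpowers y).Normal := normal_of_central c1 (hLS.trans le_sup_left) hUN
    rcases max_inv (h.not_le (hLN hx₀) hx₀1) (h.max x₀ (hLN hx₀) hx₀1) (U := S ⊔ zpowers y)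
      le_sup_left hUN (by rw [normalizer_eq_top]; exact le_top) with h1 | h1
    · have : y ∈ S := by
        rw [hS, ← h1]; exact mem_sup_right (mem_zpowers y)
      exact mem_cent.1 this.2
    · exfalso
      have hw' : w ∈ S ⊔ zpowers y := by rw [h1]; exact hwN
      obtain ⟨t, ht, m, hm, hwt⟩ := mem_sup_of_norm (H := S) (K := zpowers y)
        (by rw [normalizer_eq_top]; exact le_top) hw'
      obtain ⟨i, rfl⟩ := mem_zpowers_iff.1 hm
      -- t ^ p = 1, (y^i)^p = 1, so w^p ∈ L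
      have htp : t ^ p = 1 := hB t ht.1 (mem_cent.1 ht.2)
      have hyip : (y ^ i) ^ p = 1 := by
        rw [← zpow_natCast, ← zpow_mul, mul_comm, zpow_mul, zpow_natCast, hyp, one_zpow]
      apply hwpL
      have hc : Commute (QuotientGroup.mk' L t) (QuotientGroup.mk' L (y ^ i)) := by
        have h1 := c1 (y ^ i) (N.zpow_mem hy i) t
        have h2 : QuotientGroup.mk' L (t * y ^ i * t⁻¹ * (y ^ i)⁻¹) = 1 :=
          (QuotientGroup.eq_one_iff _).2 h1
        rw [map_mul, map_mul, map_mul, map_inv, map_inv] at h2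
        have h3 := mul_inv_eq_one.1 h2
        exact mul_inv_eq_iff_eq_mul.1 h3
      have : QuotientGroup.mk' L (w ^ p) = 1 := by
        rw [hwt, map_pow, map_mul, hc.mul_pow, ← map_pow, ← map_pow, htp, hyip, map_one, one_mul]
      exact (QuotientGroup.eq_one_iff _).1 this

theorem exists_min_normal [Finite G] {N : Subgroup G} (hN : N.Normal) (hN1 : N ≠ ⊥) :
    ∃ L : Subgroup G, L.Normal ∧ L ≤ N ∧ L ≠ ⊥ ∧
      ∀ L₀ : Subgroup G, L₀.Normal → L₀ ≤ L → L₀ = ⊥ ∨ L₀ = L := by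
  obtain ⟨L, hL⟩ := (Set.toFinite {L : Subgroup G | L.Normal ∧ L ≤ N ∧ L ≠ ⊥}).exists_minimal
    ⟨N, hN, le_rfl, hN1⟩
  refine ⟨L, hL.1.1, hL.1.2.1, hL.1.2.2, ?_⟩
  intro L₀ h0 h1
  by_cases hb : L₀ = ⊥
  · exact Or.inl hb
  · right
    exact le_antisymm h1 (hL.2 ⟨h0, h1.trans hL.1.2.1, hb⟩ h1)

theorem exists_prime_exp [Finite G] {L : Subgroup G} (hL : L.Normal) (hL1 : L ≠ ⊥)
    (hmin : ∀ L₀ : Subgroup G, L₀.Normal → L₀ ≤ L → L₀ = ⊥ ∨ L₀ = L)
    (hcomm : ∀ a ∈ L, ∀ b ∈ L, a * b = b * a) :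
    ∃ p : ℕ, p.Prime ∧ ∀ a ∈ L, a ^ p = 1 := by
  obtain ⟨a, ha, ha1⟩ : ∃ a ∈ L, a ≠ 1 := by
    by_contra hcon
    push Not at hcon
    exact hL1 ((eq_bot_iff_forall L).2 hcon)
  obtain ⟨p, hp, hpd⟩ := Nat.exists_prime_and_dvd (show orderOf a ≠ 1 by
    rw [Ne, orderOf_eq_one_iff]; exact ha1)
  refine ⟨p, hp, ?_⟩
  let Ω : Subgroup G :=
    { carrier := {x | x ∈ L ∧ x ^ p = 1}
      mul_mem' := by
        rintro x y ⟨hx, hx2⟩ ⟨hy, hy2⟩
        exact ⟨L.mul_mem hx hy, by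
          rw [(show Commute x y from hcomm x hx y hy).mul_pow, hx2, hy2, one_mul]⟩
      one_mem' := ⟨L.one_mem, one_pow _⟩
      inv_mem' := by
        rintro x ⟨hx, hx2⟩
        exact ⟨L.inv_mem hx, by rw [inv_pow, hx2, inv_one]⟩ }
  have hΩn : Ω.Normal := by
    constructor
    rintro x ⟨hx, hx2⟩ g
    exact ⟨hL.conj_mem x hx g, by rw [conj_pow, hx2]; group⟩
  have hΩL : Ω ≤ L := fun x hx => hx.1
  rcases hmin Ω hΩn hΩL with h1 | h1
  · exfalso
    have hb : a ^ (orderOf a / p) ∈ Ω := by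
      refine ⟨L.pow_mem ha _, ?_⟩
      rw [← pow_mul, Nat.div_mul_cancel hpd, pow_orderOf_eq_one]
    rw [h1, mem_bot] at hb
    have h2 := orderOf_dvd_of_pow_eq_one hb
    have h3 : orderOf a / p < orderOf a := Nat.div_lt_self (orderOf_pos a) hp.one_lt
    have h4 : 0 < orderOf a / p := Nat.div_pos (Nat.le_of_dvd (orderOf_pos a) hpd) hp.pos
    exact absurd (Nat.le_of_dvd h4 h2) (by omega)
  · intro x hx
    have : x ∈ Ω := by rw [h1]; exact hx
    exact this.2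

theorem core_of [Finite G] {N : Subgroup G} (h : CL N)
    (hM : ∀ L : Subgroup G, L.Normal → L ≤ N → L ≠ ⊥ →
      (∀ L₀ : Subgroup G, L₀.Normal → L₀ ≤ L → L₀ = ⊥ ∨ L₀ = L) → ∀ a ∈ L, ∀ b ∈ L, a * b = b * a) :
    ∃ K p q, Out N K p q := by
  obtain ⟨L, hL, hLN, hL1, hmin⟩ := exists_min_normal h.normal h.ne
  have hcomm := hM L hL hLN hL1 hmin
  obtain ⟨p, hp, hexp⟩ := exists_prime_exp hL hL1 hmin hcomm
  by_cases hA : ∀ x ∈ L, x ≠ 1 → ∀ u ∈ N, u ≠ 1 → u * x = x * u →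
      centralizer ({u} : Set G) = centralizer ({x} : Set G)
  · obtain ⟨q, hq⟩ := h.caseA hL hLN hL1 hmin hcomm hp hexp hA
    exact ⟨L, p, q, hq⟩
  · push Not at hA
    obtain ⟨x₀, hx₀, hx₀1, u, hu, hu1, hux, hne⟩ := hA
    rcases h.dich (hLN hx₀) hx₀1 with hA' | ⟨r, hr, hr2⟩
    · exact absurd (hA' u hu hu1 hux) hne
    · have hrp : r = p := eq_of_prime_pow hx₀1 hp hr (hexp x₀ hx₀) (hr2 x₀ (hLN hx₀) rfl)
      obtain ⟨q, hq⟩ := h.caseB hL hLN hL1 hmin hcomm hp hexp hx₀ hx₀1 (by rw [← hrp]; exact hr2)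
      exact ⟨L, p, q, hq⟩

end Cfsg.Agent.Lib.Helper70.CMax
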