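import Mathlib
import Cfsg.Agent.Lib.Helper70.CMax.Basic
import Cfsg.Prelude.Def_Transfer
import Cfsg.Prelude.Def_Solvable

set_option autoImplicit false

namespace Cfsg.Agent.Lib.Helper70.CMax

open Subgroup
open scoped Pointwise

theorem FD_of_Out {Γ H : Type*} [Group Γ] [Group H] (f : H →* Γ) (hf : Function.Injective f)
    {N K : Subgroup Γ} {p q : ℕ} (hr : f.range = N) (h : Out N K p q) : FD H (K.comap f) p q := by
  refine ⟨Subgroup.Normal.comap h.normal f, ?_, h.pp, h.qp, ?_, ?_, ?_, ?_⟩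
  · intro hb
    apply h.ne
    rw [eq_bot_iff_forall]
    intro k hk
    have hkN : k ∈ f.range := by rw [hr]; exact h.le hk
    obtain ⟨a, rfl⟩ := hkN
    have : a ∈ K.comap f := hk
    rw [hb, mem_bot] at this
    rw [this, map_one]
  · intro a ha b hb
    apply hf
    rw [map_mul, map_mul]
    exact h.comm _ ha _ hb
  · intro a ha
    apply hf
    rw [map_pow, map_one]
    exact h.exp _ ha
  · rw [index_comap, hr, h.idx]
  · intro y hy k hk hc
    apply hf
    rw [map_one]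
    apply h.fpf (f y) (by rw [← hr]; exact ⟨y, rfl⟩) hy (f k) hk
    rw [← map_mul, hc, map_mul]

section
variable {H : Type*} [Group H] {K : Subgroup H} {p q : ℕ}

theorem FD.exists_notMem (h : FD H K p q) : ∃ y, y ∉ K := by
  by_contra hcon
  push Not at hcon
  have : K = ⊤ := (eq_top_iff' K).2 hcon
  have h1 := h.idx
  rw [this, index_top] at h1
  exact h.qp.one_lt.ne h1

theorem FD.pow_eq_one (h : FD H K p q) {y : H} (hy : y ∉ K) : y ^ q = 1 := by
  have := h.normal
  have h1 : y ^ q ∈ K := by rw [← h.idx]; exact K.pow_index_mem y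
  exact h.fpf y hy _ h1 ((Commute.refl y).pow_right q).eq

theorem FD.orderOf_eq (h : FD H K p q) {y : H} (hy : y ∉ K) : orderOf y = q := by
  have h1 : y ≠ 1 := by
    rintro rfl
    exact hy K.one_mem
  exact ((Nat.dvd_prime h.qp).1 (orderOf_dvd_of_pow_eq_one (h.pow_eq_one hy))).resolve_left
    (by rw [orderOf_eq_one_iff]; exact h1)

/-- every element is congruent modulo `K` to a power of `y`. -/
theorem FD.exists_zpow (h : FD H K p q) {y : H} (hy : y ∉ K) (x : H) : ∃ i : ℤ, x⁻¹ * y ^ i ∈ K := by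
  have := h.normal
  have : Fact q.Prime := ⟨h.qp⟩
  have hcard : Nat.card (H ⧸ K) = q := h.idx
  have hy1 : (QuotientGroup.mk y : H ⧸ K) ≠ 1 := by
    intro hc
    exact hy ((QuotientGroup.eq_one_iff y).1 hc)
  have htop := zpowers_eq_top_of_prime_card hcard hy1
  have hx : (QuotientGroup.mk x : H ⧸ K) ∈ zpowers (QuotientGroup.mk y : H ⧸ K) := by
    rw [htop]; exact mem_top _
  obtain ⟨i, hi⟩ := mem_zpowers_iff.1 hx
  refine ⟨i, ?_⟩
  rw [← QuotientGroup.eq, ← hi, QuotientGroup.mk_zpow]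

theorem FD.comm_mem (h : FD H K p q) (a b : H) : a * b * a⁻¹ * b⁻¹ ∈ K := by
  have := h.normal
  obtain ⟨y, hy⟩ := h.exists_notMem
  obtain ⟨i, hi⟩ := h.exists_zpow hy a
  obtain ⟨j, hj⟩ := h.exists_zpow hy b
  have ha : (QuotientGroup.mk a : H ⧸ K) = (QuotientGroup.mk y) ^ i := by
    rw [← QuotientGroup.mk_zpow, QuotientGroup.eq]; exact hi
  have hb : (QuotientGroup.mk b : H ⧸ K) = (QuotientGroup.mk y) ^ j := by
    rw [← QuotientGroup.mk_zpow, QuotientGroup.eq]; exact hj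
  rw [← QuotientGroup.eq_one_iff, QuotientGroup.mk_mul, QuotientGroup.mk_mul, QuotientGroup.mk_mul,
    QuotientGroup.mk_inv, QuotientGroup.mk_inv, ha, hb]
  have : Commute ((QuotientGroup.mk y : H ⧸ K) ^ i) ((QuotientGroup.mk y : H ⧸ K) ^ j) :=
    ((Commute.refl _).zpow_left i).zpow_right j
  rw [this.eq]
  group

theorem FD.zpowers_inf (h : FD H K p q) {y : H} (hy : y ∉ K) {u : H} (hu : u ∈ zpowers y)
    (huK : u ∈ K) : u = 1 := by
  obtain ⟨i, rfl⟩ := mem_zpowers_iff.1 hu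
  exact h.fpf y hy _ huK ((Commute.refl y).zpow_right i).eq

theorem FD.exists_ne_one (h : FD H K p q) : ∃ k ∈ K, k ≠ 1 := by
  by_contra hcon
  push Not at hcon
  exact h.ne ((eq_bot_iff_forall K).2 hcon)

/-- an element outside `K` is `K`-conjugate to any element of its coset. -/
theorem FD.exists_conj [Finite H] (h : FD H K p q) {x u : H} (hx : x ∉ K) (hu : x⁻¹ * u ∈ K) :
    ∃ k ∈ K, k * x * k⁻¹ = u := by
  have hn := h.normal
  let ψ : ↥K → ↥K := fun k => ⟨x⁻¹ * ((k : H) * x * (k : H)⁻¹), by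
    have : x⁻¹ * ((k : H) * x * (k : H)⁻¹) = (x⁻¹ * k * x⁻¹⁻¹) * (k : H)⁻¹ := by group
    rw [this]
    exact K.mul_mem (hn.conj_mem _ k.2 _) (K.inv_mem k.2)⟩
  have hinj : Function.Injective ψ := by
    intro k k' hk
    have h1 : x⁻¹ * ((k : H) * x * (k : H)⁻¹) = x⁻¹ * ((k' : H) * x * (k' : H)⁻¹) :=
      congrArg Subtype.val hk
    have h2 : (k : H) * x * (k : H)⁻¹ = (k' : H) * x * (k' : H)⁻¹ := mul_left_cancel h1
    have h3 : x * ((k' : H)⁻¹ * k) = ((k' : H)⁻¹ * k) * x := by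
      have : ((k' : H)⁻¹ * k) * x = (k' : H)⁻¹ * ((k : H) * x * (k : H)⁻¹) * k := by group
      rw [this, h2]
      group
    have h4 := h.fpf x hx _ (K.mul_mem (K.inv_mem k'.2) k.2) h3
    apply Subtype.ext
    have := inv_mul_eq_one.1 h4
    exact this.symm
  obtain ⟨k, hk⟩ := (Finite.injective_iff_surjective.1 hinj) ⟨x⁻¹ * u, hu⟩
  refine ⟨k, k.2, ?_⟩
  have h1 : x⁻¹ * ((k : H) * x * (k : H)⁻¹) = x⁻¹ * u := congrArg Subtype.val hk
  exact mul_left_cancel h1

theorem mem_conj_smul {Q : Subgroup H} {g x : H} : x ∈ MulAut.conj g • Q ↔ g⁻¹ * x * g ∈ Q := by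
  rw [mem_pointwise_smul_iff_inv_smul_mem]
  simp [MulAut.smul_def]

theorem frob_of_FD [Finite H] (h : FD H K p q) :
    ∃ Q : Subgroup H, Cfsg.IsFrobeniusComplement Q ∧ (Nat.card ↥Q).Prime ∧
      (K : Set H) = Cfsg.frobeniusKernel Q ∧ Cfsg.IsElementaryAbelian p K := by
  have hn := h.normal
  obtain ⟨y, hy⟩ := h.exists_notMem
  have hcardQ : Nat.card ↥(zpowers y) = q := by rw [Nat.card_zpowers, h.orderOf_eq hy]
  refine ⟨zpowers y, ⟨?_, ?_, ?_⟩, by rw [hcardQ]; exact h.qp, ?_, ⟨⟨⟨fun a b => Subtype.ext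
    (h.comm a a.2 b b.2)⟩⟩, h.exp⟩⟩
  · intro hb
    have : y ∈ zpowers y := mem_zpowers y
    rw [hb, mem_bot] at this
    exact hy (this ▸ K.one_mem)
  · intro ht
    obtain ⟨k, hk, hk1⟩ := h.exists_ne_one
    exact hk1 (h.zpowers_inf hy (by rw [ht]; exact mem_top k) hk)
  · intro g hg
    rw [eq_bot_iff]
    intro u hu
    rw [mem_bot]
    by_contra hu1
    have huQ : u ∈ zpowers y := hu.1
    have hvQ : g⁻¹ * u * g ∈ zpowers y := mem_conj_smul.1 hu.2
    have huK : u ∉ K := fun hc => hu1 (h.zpowers_inf hy huQ hc)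
    -- `g` commutes with `u`
    have h1 : u⁻¹ * (g⁻¹ * u * g) = 1 := by
      apply h.zpowers_inf hy ((zpowers y).mul_mem ((zpowers y).inv_mem huQ) hvQ)
      have := h.comm_mem u⁻¹ g⁻¹
      have e : u⁻¹ * (g⁻¹ * u * g) = u⁻¹ * g⁻¹ * u⁻¹⁻¹ * g⁻¹⁻¹ := by group
      rw [e]
      exact this
    have h2 : g * u = u * g := by
      have := inv_mul_eq_one.1 h1
      calc g * u = g * (g⁻¹ * u * g) := by rw [← this]
        _ = u * g := by group
    -- the centralizer of `u` is `zpowers y`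
    have hCK : K ⊓ centralizer ({u} : Set H) = ⊥ := by
      rw [eq_bot_iff]
      intro k hk
      rw [mem_bot]
      exact h.fpf u huK k hk.1 (mem_cent.1 hk.2).symm
    have hcardC : Nat.card ↥(centralizer ({u} : Set H)) ∣ q := by
      have := relIndex_dvd_index_of_normal K (centralizer ({u} : Set H))
      rwa [← inf_relIndex_right, hCK, relIndex_bot_left, h.idx] at this
    have hQC : zpowers y ≤ centralizer ({u} : Set H) := by
      rw [zpowers_le, mem_cent]
      obtain ⟨i, rfl⟩ := mem_zpowers_iff.1 huQ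
      exact ((Commute.refl y).zpow_right i).eq
    have heq : zpowers y = centralizer ({u} : Set H) := by
      apply eq_of_le_of_card_ge hQC
      rw [hcardQ]
      exact Nat.le_of_dvd h.qp.pos hcardC
    apply hg
    rw [heq, mem_cent]
    exact h2
  · ext x
    simp only [SetLike.mem_coe, Cfsg.frobeniusKernel, Set.mem_ofPred_eq]
    constructor
    · intro hx
      by_cases hx1 : x = 1
      · exact Or.inl hx1
      · right
        intro g hg
        apply hx1
        have h1 := mem_conj_smul.1 hg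
        have h2 : g⁻¹ * x * g ∈ K := by
          have := hn.conj_mem x hx g⁻¹
          rwa [inv_inv] at this
        have h3 := h.zpowers_inf hy h1 h2
        have : x = g * (g⁻¹ * x * g) * g⁻¹ := by group
        rw [this, h3]
        group
    · intro hx
      by_contra hxK
      rcases hx with hx | hx
      · exact hxK (hx ▸ K.one_mem)
      · obtain ⟨i, hi⟩ := h.exists_zpow hy x
        obtain ⟨k, _, hk⟩ := h.exists_conj hxK hi
        apply hx k⁻¹
        rw [mem_conj_smul, inv_inv, hk]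
        exact zpow_mem (mem_zpowers y) i

theorem minnonab_of_FD [Finite H] (h : FD H K p q)
    (hmin : ∀ K₀ : Subgroup H, K₀.Normal → K₀ ≤ K → K₀ = ⊥ ∨ K₀ = K) :
    ¬ IsMulCommutative H ∧ (∀ U : Subgroup H, U ≠ ⊤ → IsMulCommutative ↥U) ∧
      ∃ a : ℕ, p ≠ q ∧ Nat.card H = p ^ a * q ∧ ∀ P : Subgroup H, Nat.card ↥P = p ^ a → P.Normal := by
  have hn := h.normal
  have : Fact p.Prime := ⟨h.pp⟩
  obtain ⟨y₀, hy₀⟩ := h.exists_notMem
  obtain ⟨k₀, hk₀, hk₀1⟩ := h.exists_ne_one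
  have hPG : IsPGroup p ↥K := by
    intro k
    exact ⟨1, by rw [pow_one]; exact Subtype.ext (h.exp k k.2)⟩
  obtain ⟨a, ha⟩ := hPG.exists_card_eq
  have hcard : Nat.card H = p ^ a * q := by rw [← K.card_mul_index, ha, h.idx]
  have hpq : p ≠ q := by
    intro hpq
    have hPH : IsPGroup p H := IsPGroup.of_card (n := a + 1) (by rw [hcard, ← hpq, pow_succ])
    have : Nontrivial H := ⟨⟨k₀, 1, hk₀1⟩⟩
    have := hPH.center_nontrivial
    obtain ⟨z, hz⟩ := exists_ne (1 : ↥(center H))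
    have hzc := mem_center_iff.1 z.2
    by_cases hzK : (z : H) ∈ K
    · exact hz (Subtype.ext (h.fpf y₀ hy₀ z hzK (hzc y₀)))
    · exact hk₀1 (h.fpf z hzK k₀ hk₀ (hzc k₀).symm)
  refine ⟨?_, ?_, a, hpq, hcard, ?_⟩
  · intro hc
    exact hk₀1 (h.fpf y₀ hy₀ k₀ hk₀ (hc.is_comm.comm y₀ k₀))
  · intro U hU
    by_cases hUK : U ≤ K
    · exact ⟨⟨fun a b => Subtype.ext (h.comm a (hUK a.2) b (hUK b.2))⟩⟩
    · obtain ⟨y, hyU, hyK⟩ := SetLike.not_le_iff_exists.1 hUK
      have hdec : ∀ g : H, ∃ k ∈ K, ∃ i : ℤ, g = y ^ i * k := by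
        intro g
        obtain ⟨i, hi⟩ := h.exists_zpow hyK g
        refine ⟨(g⁻¹ * y ^ i)⁻¹, K.inv_mem hi, i, by group⟩
      have hnorm : (U ⊓ K).Normal := by
        constructor
        intro x hx g
        obtain ⟨k, hk, i, rfl⟩ := hdec g
        have h1 : k * x * k⁻¹ = x := by
          rw [h.comm k hk x hx.2]; group
        have h2 : y ^ i * k * x * (y ^ i * k)⁻¹ = y ^ i * (k * x * k⁻¹) * (y ^ i)⁻¹ := by group
        rw [h2, h1]
        exact ⟨U.mul_mem (U.mul_mem (U.zpow_mem hyU i) hx.1) (U.inv_mem (U.zpow_mem hyU i)),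
          hn.conj_mem x hx.2 _⟩
      rcases hmin _ hnorm inf_le_right with h1 | h1
      · refine ⟨⟨fun a b => Subtype.ext ?_⟩⟩
        have h2 : (a : H) * b * (a : H)⁻¹ * (b : H)⁻¹ ∈ U ⊓ K :=
          ⟨U.mul_mem (U.mul_mem (U.mul_mem a.2 b.2) (U.inv_mem a.2)) (U.inv_mem b.2),
            h.comm_mem a b⟩
        rw [h1, mem_bot] at h2
        have h3 := mul_inv_eq_one.1 h2
        exact mul_inv_eq_iff_eq_mul.1 h3
      · exfalso
        apply hU
        rw [eq_top_iff']
        intro g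
        obtain ⟨k, hk, i, rfl⟩ := hdec g
        have : k ∈ U ⊓ K := by rw [h1]; exact hk
        exact U.mul_mem (U.zpow_mem hyU i) this.1
  · intro P hP
    have hPK : P ≤ K := by
      intro x hx
      by_contra hxK
      have h1 := h.orderOf_eq hxK
      have h2 : orderOf x ∣ Nat.card ↥P := by
        have := orderOf_dvd_natCard (⟨x, hx⟩ : ↥P)
        rwa [Subgroup.orderOf_mk] at this
      rw [h1, hP] at h2
      exact hpq ((Nat.prime_dvd_prime_iff_eq h.qp h.pp).1 (h.qp.dvd_of_dvd_pow h2)).symm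
    have : P = K := eq_of_le_of_card_ge hPK (by rw [hP, ha])
    rw [this]
    exact hn

end

end Cfsg.Agent.Lib.Helper70.CMax
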