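import Mathlib
import Cfsg.Agent.Lib.Helper70.CMax.Basic
import Cfsg.Prelude.Def_Transfer

set_option autoImplicit false

namespace Cfsg.Agent.Lib.Helper70.CMax

open Subgroup

theorem CL_quot {G : Type*} [Group G] [Finite G] {N : Subgroup G} [N.Normal] (h : Hyp N) (Z : Subgroup G) [Z.Normal]
    (hZ : Z = N ⊓ centralizer (N : Set G)) (h1 : ¬ N ≤ centralizer (N : Set G))
    (h2 : ∀ w ∈ N, (∀ g ∈ N, w * g * w⁻¹ * g⁻¹ ∈ centralizer (N : Set G)) → w ∈ centralizer (N : Set G)) :
    CL (N.map (QuotientGroup.mk' Z)) := by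
  set π := QuotientGroup.mk' Z with hπ
  have hsurj : Function.Surjective π := QuotientGroup.mk'_surjective Z
  have hker : ∀ g : G, π g = 1 ↔ g ∈ Z := fun g => QuotientGroup.eq_one_iff g
  -- if `π x` commutes with the image of `N` then `x` is central in `N`
  have key : ∀ x ∈ N, (∀ g ∈ N, π g * π x = π x * π g) → x ∈ centralizer (N : Set G) := by
    intro x hx hc
    apply h2 x hx
    intro g hg
    have : π (x * g * x⁻¹ * g⁻¹) = 1 := by
      rw [map_mul, map_mul, map_mul, map_inv, map_inv, ← hc g hg]
      group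
    have h3 := (hker _).1 this
    rw [hZ] at h3
    exact h3.2
  refine ⟨Subgroup.Normal.map inferInstance π hsurj, ?_, ?_, ?_⟩
  · intro hb
    apply h1
    intro n hn
    have : π n ∈ N.map π := mem_map_of_mem π hn
    rw [hb, mem_bot, hker, hZ] at this
    exact this.2
  · rintro _ ⟨x, hx, rfl⟩ hc
    have hx2 : x ∈ centralizer (N : Set G) := by
      apply key x hx
      intro g hg
      exact (mem_centralizer_iff.1 hc) (π g) (mem_map_of_mem π hg)
    rw [hker, hZ]
    exact ⟨hx, hx2⟩
  · rintro _ ⟨x, hx, rfl⟩ hx1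
    have hxZ : x ∉ centralizer (N : Set G) := by
      intro hc
      apply hx1
      rw [hker, hZ]
      exact ⟨hx, hc⟩
    have hM := h x hx hxZ
    have hle : centralizer ({x} : Set G) ≤ (centralizer ({π x} : Set (G ⧸ Z))).comap π := by
      intro g hg
      rw [mem_comap, mem_cent, ← map_mul, mem_cent.1 hg, map_mul]
    have hne : (centralizer ({π x} : Set (G ⧸ Z))).comap π ≠ ⊤ := by
      intro ht
      apply hxZ
      apply key x hx
      intro g _
      have : g ∈ (centralizer ({π x} : Set (G ⧸ Z))).comap π := by rw [ht]; exact mem_top g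
      exact mem_cent.1 (mem_comap.1 this)
    have heq : (centralizer ({π x} : Set (G ⧸ Z))).comap π = centralizer ({x} : Set G) :=
      (hM.le_iff.1 hle).resolve_left hne
    constructor
    · intro ht
      apply hne
      rw [ht, comap_top]
    · intro B hB
      have h3 : centralizer ({x} : Set G) < B.comap π := by
        rw [← heq]
        refine lt_of_le_of_ne (comap_mono hB.le) ?_
        intro he
        exact hB.ne (comap_injective hsurj he)
      have h4 := hM.2 _ h3
      apply comap_injective hsurj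
      rw [h4, comap_top]

theorem exists_hom {G : Type*} [Group G] {N : Subgroup G} [N.Normal] (Z : Subgroup G) [Z.Normal]
    (hZ : Z = N ⊓ centralizer (N : Set G)) :
    ∃ f : (↥N ⧸ center ↥N) →* G ⧸ Z, Function.Injective f ∧ f.range = N.map (QuotientGroup.mk' Z) := by
  have hmem : ∀ n : ↥N, n ∈ center ↥N ↔ (n : G) ∈ Z := by
    intro n
    rw [hZ, mem_inf, mem_center_iff, mem_centralizer_iff]
    constructor
    · intro hn
      exact ⟨n.2, fun g hg => congrArg Subtype.val (hn ⟨g, hg⟩)⟩
    · intro hn g
      exact Subtype.ext (hn.2 g g.2)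
  let f0 : ↥N →* G ⧸ Z := (QuotientGroup.mk' Z).comp N.subtype
  have hf0 : center ↥N ≤ f0.ker := by
    intro n hn
    rw [MonoidHom.mem_ker]
    exact (QuotientGroup.eq_one_iff _).2 ((hmem n).1 hn)
  refine ⟨QuotientGroup.lift (center ↥N) f0 hf0, ?_, ?_⟩
  · rw [injective_iff_map_eq_one]
    intro a
    induction a using QuotientGroup.induction_on with
    | H n =>
      intro hn
      rw [QuotientGroup.lift_mk] at hn
      exact (QuotientGroup.eq_one_iff _).2 ((hmem n).2 ((QuotientGroup.eq_one_iff _).1 hn))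
  · ext y
    constructor
    · rintro ⟨a, rfl⟩
      induction a using QuotientGroup.induction_on with
      | H n =>
        rw [QuotientGroup.lift_mk]
        exact mem_map_of_mem _ n.2
    · rintro ⟨n, hn, rfl⟩
      exact ⟨QuotientGroup.mk (⟨n, hn⟩ : ↥N), by rw [QuotientGroup.lift_mk]; rfl⟩

theorem ea_quot {H : Type*} [Group H] (p : ℕ) (h1 : ∀ g : H, g ^ p ∈ center H)
    (h2 : ∀ g k : H, g * k * g⁻¹ * k⁻¹ ∈ center H) :
    Cfsg.IsElementaryAbelian p (⊤ : Subgroup (H ⧸ center H)) := by
  constructor
  · refine ⟨⟨fun a b => Subtype.ext ?_⟩⟩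
    obtain ⟨a, _⟩ := a
    obtain ⟨b, _⟩ := b
    change a * b = b * a
    induction a using QuotientGroup.induction_on with
    | H g =>
      induction b using QuotientGroup.induction_on with
      | H k =>
        rw [← QuotientGroup.mk_mul, ← QuotientGroup.mk_mul, QuotientGroup.eq]
        have := h2 k⁻¹ g⁻¹
        have e : (g * k)⁻¹ * (k * g) = k⁻¹ * g⁻¹ * k⁻¹⁻¹ * g⁻¹⁻¹ := by group
        rw [e]
        exact this
  · intro a _
    induction a using QuotientGroup.induction_on with
    | H g =>
      rw [← QuotientGroup.mk_pow]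
      exact (QuotientGroup.eq_one_iff _).2 (h1 g)

end Cfsg.Agent.Lib.Helper70.CMax
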